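import Cfsg.Agent.H191.AltElts

/-!
# A bound for alternating sections from the Sylow 2-subgroup

`le_seven`: if the finite group `G` has an abelian subgroup `T` with at most 4 solutions of `x ^ 2 = 1` and `8 ∤ |G : T|`,
then no quotient of a subgroup of `G` is `A_r`, `r ≥ 8`.
-/

set_option autoImplicit false

namespace Cfsg.Agent.H191.AltTwo

open Equiv

/-! ### group theory -/

/-- If `V`, `E` are abelian, `E` of exponent 2 and order 16, `V` of index at most 4 with at most 4 solutions of `x ^ 2 = 1`,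
then `V ⊓ E` is central, of order 4. -/
theorem central_four {R : Type*} [Group R] [Finite R] (V E : Subgroup R) (hV : ∀ x ∈ V, ∀ y ∈ V, x * y = y * x)
    (hE : ∀ x ∈ E, ∀ y ∈ E, x * y = y * x) (hE2 : ∀ x ∈ E, x ^ 2 = 1) (hE16 : Nat.card E = 16)
    (hV2 : Nat.card {x : V // x ^ 2 = 1} ≤ 4) (hVi : V.index ≤ 4) :
    4 ≤ Nat.card (V ⊓ E : Subgroup R) ∧ ∀ z ∈ V ⊓ E, ∀ g : R, z * g = g * z := by
  have h1 : Nat.card (V ⊓ E : Subgroup R) ≤ 4 := by
    refine le_trans (Nat.card_le_card_of_injective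
      (fun x : (V ⊓ E : Subgroup R) => (⟨⟨x.1, x.2.1⟩, Subtype.ext (hE2 _ x.2.2)⟩ : {x : V // x ^ 2 = 1})) ?_) hV2
    intro x y h
    apply Subtype.ext
    exact congrArg (fun z : {x : V // x ^ 2 = 1} => ((z : V) : R)) h
  have h2 : Nat.card (V ⊓ E : Subgroup R) * V.relIndex E = 16 := by
    rw [← hE16, ← Subgroup.inf_relIndex_right, ← Subgroup.relIndex_bot_left, ← Subgroup.relIndex_bot_left]
    exact Subgroup.relIndex_mul_relIndex _ _ _ bot_le inf_le_right
  have h3 : V.relIndex E ≤ V.relIndex (V ⊔ E) :=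
    Subgroup.relIndex_le_of_le_right le_sup_right (Subgroup.index_ne_zero_of_finite (H := V.subgroupOf (V ⊔ E)))
  have h4 : V.relIndex (V ⊔ E) * (V ⊔ E).index = V.index := Subgroup.relIndex_mul_index le_sup_left
  have h5 : (V ⊔ E).index ≠ 0 := Subgroup.index_ne_zero_of_finite
  have h6 : 4 ≤ V.relIndex E := by
    by_contra h
    have : Nat.card (V ⊓ E : Subgroup R) * V.relIndex E ≤ 4 * 3 := Nat.mul_le_mul h1 (by omega)
    omega
  have h7 : V.relIndex E ≤ 4 := by
    refine le_trans h3 (le_trans ?_ hVi)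
    rw [← h4]
    exact Nat.le_mul_of_pos_right _ (Nat.pos_of_ne_zero h5)
  have h8 : (V ⊔ E).index = 1 := by
    by_contra h
    have h9 : 2 ≤ (V ⊔ E).index := by omega
    have : 4 * 2 ≤ V.relIndex (V ⊔ E) * (V ⊔ E).index := Nat.mul_le_mul (h6.trans h3) h9
    omega
  rw [Subgroup.index_eq_one] at h8
  refine ⟨?_, fun z hz g => ?_⟩
  · by_contra h
    have : Nat.card (V ⊓ E : Subgroup R) * V.relIndex E ≤ 3 * 4 := Nat.mul_le_mul (by omega) h7
    omega
  · have h9 : V ⊔ E ≤ Subgroup.centralizer {z} := by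
      rw [sup_le_iff]
      constructor
      · intro x hx
        rw [Subgroup.mem_centralizer_singleton_iff]
        exact hV _ hx _ hz.1
      · intro x hx
        rw [Subgroup.mem_centralizer_singleton_iff]
        exact hE _ hx _ hz.2
    have h10 : g ∈ Subgroup.centralizer {z} := h9 (h8 ▸ Subgroup.mem_top g)
    rw [Subgroup.mem_centralizer_singleton_iff] at h10
    exact h10.symm

theorem card_two_eq_index (A : Type*) [CommGroup A] [Finite A] :
    Nat.card {x : A // x ^ 2 = 1} = (powMonoidHom 2 : A →* A).range.index := by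
  have h1 : Nat.card {x : A // x ^ 2 = 1} = Nat.card (powMonoidHom 2 : A →* A).ker := rfl
  have h2 := Subgroup.card_mul_index (powMonoidHom 2 : A →* A).ker
  have h3 := Subgroup.card_mul_index (powMonoidHom 2 : A →* A).range
  rw [Subgroup.index_ker] at h2
  rw [h1]
  have h4 : Nat.card (powMonoidHom 2 : A →* A).range ≠ 0 := Nat.card_pos.ne'
  have h5 : Nat.card (powMonoidHom 2 : A →* A).range * Nat.card (powMonoidHom 2 : A →* A).ker =
      Nat.card (powMonoidHom 2 : A →* A).range * (powMonoidHom 2 : A →* A).range.index := by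
    rw [h3, mul_comm, h2]
  exact Nat.eq_of_mul_eq_mul_left (Nat.pos_of_ne_zero h4) h5

/-- the number of solutions of `x ^ 2 = 1` does not grow in quotients of finite abelian groups -/
theorem card_two_le {M N : Type*} [CommGroup M] [CommGroup N] [Finite M] (f : M →* N)
    (hf : Function.Surjective f) : Nat.card {y : N // y ^ 2 = 1} ≤ Nat.card {x : M // x ^ 2 = 1} := by
  have hfin : Finite N := Finite.of_surjective f hf
  rw [card_two_eq_index N, card_two_eq_index M]
  have h1 : (powMonoidHom 2 : N →* N).range = (powMonoidHom 2 : M →* M).range.map f := by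
    ext y
    constructor
    · rintro ⟨x, rfl⟩
      obtain ⟨z, rfl⟩ := hf x
      exact ⟨z ^ 2, ⟨z, rfl⟩, map_pow f z 2⟩
    · rintro ⟨_, ⟨z, rfl⟩, rfl⟩
      exact ⟨f z, (map_pow f z 2).symm⟩
  rw [h1]
  exact Nat.le_of_dvd (Nat.pos_of_ne_zero Subgroup.index_ne_zero_of_finite) (Subgroup.index_map_dvd _ hf)

/-- A 2-group acting on a finite set whose size is not divisible by 8 has an orbit of size at most 4. -/
theorem exists_small_orbit {P α : Type*} [Group P] [Finite P] (hP : IsPGroup 2 P) [MulAction P α] [Finite α]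
    (h : ¬ 8 ∣ Nat.card α) : ∃ x : α, (MulAction.stabilizer P x).index ≤ 4 := by
  classical
  have := Fintype.ofFinite α
  have := Fintype.ofFinite P
  by_contra hcon
  push Not at hcon
  apply h
  have h1 : Nat.card α = ∑ ω : MulAction.orbitRel.Quotient P α, Nat.card (MulAction.orbitRel.Quotient.orbit ω) := by
    rw [Nat.card_congr (MulAction.selfEquivSigmaOrbits' P α), Nat.card_sigma]
  rw [h1]
  apply Finset.dvd_sum
  intro ω _
  induction ω using Quotient.inductionOn' with
  | h x =>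
    have h2 : Nat.card (MulAction.orbitRel.Quotient.orbit (Quotient.mk'' x : MulAction.orbitRel.Quotient P α)) =
        (MulAction.stabilizer P x).index := by
      rw [MulAction.index_stabilizer]
      rw [MulAction.orbitRel.Quotient.orbit_mk]
      rfl
    rw [h2]
    obtain ⟨n, hn⟩ := hP.index (MulAction.stabilizer P x)
    have h3 := hcon x
    rw [hn] at h3 ⊢
    have h4 : 3 ≤ n := by
      by_contra h5
      have : 2 ^ n ≤ 2 ^ 2 := Nat.pow_le_pow_right (by norm_num) (by omega)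
      omega
    exact (pow_dvd_pow 2 h4 : 2 ^ 3 ∣ 2 ^ n)

/-! ### the 2-group in `A_8` -/

/-- `(0 1)(2 3)` -/
def e1 : Perm (Fin 8) := c[0, 1] * c[2, 3]
/-- `(0 2)(1 3)` -/
def e2 : Perm (Fin 8) := c[0, 2] * c[1, 3]
/-- `(4 5)(6 7)` -/
def e3 : Perm (Fin 8) := c[4, 5] * c[6, 7]
/-- `(4 6)(5 7)` -/
def e4 : Perm (Fin 8) := c[4, 6] * c[5, 7]
/-- `(2 3)(6 7)` -/
def tt : Perm (Fin 8) := c[2, 3] * c[6, 7]
/-- `(0 4)(1 5)(2 6)(3 7)` -/
def ss : Perm (Fin 8) := c[0, 4] * c[1, 5] * c[2, 6] * c[3, 7]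

/-- the elements of the elementary abelian group of order 16 -/
def ee (v : Fin 16) : Perm (Fin 8) :=
  (if v.val.testBit 0 then e1 else 1) * (if v.val.testBit 1 then e2 else 1) *
    (if v.val.testBit 2 then e3 else 1) * (if v.val.testBit 3 then e4 else 1)

/-- addition of bit vectors -/
def xor16 (v w : Fin 16) : Fin 16 := ⟨(v.val ^^^ w.val) % 16, Nat.mod_lt _ (by norm_num)⟩

theorem ee_mul : ∀ v w : Fin 16, ee v * ee w = ee (xor16 v w) := by decide +kernel
theorem ee_zero : ee 0 = 1 := by decide +kernel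
theorem xor_self : ∀ v : Fin 16, xor16 v v = 0 := by decide +kernel
theorem xor_comm : ∀ v w : Fin 16, xor16 v w = xor16 w v := by decide +kernel
theorem ee_inj : ∀ v w : Fin 16, ee v = ee w → v = w := by decide +kernel
theorem ee_sign : ∀ v : Fin 16, Perm.sign (ee v) = 1 := by decide +kernel
theorem tt_sign : Perm.sign tt = 1 := by decide +kernel
theorem ss_sign : Perm.sign ss = 1 := by decide +kernel
theorem tt_sq : tt * tt = 1 := by decide +kernel
theorem ss_sq : ss * ss = 1 := by decide +kernel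
theorem st_comm : ss * tt = tt * ss := by decide +kernel
theorem ss_norm : ∀ v : Fin 16, ∃ w : Fin 16, ss * ee v * ss = ee w := by decide +kernel
theorem tt_norm : ∀ v : Fin 16, ∃ w : Fin 16, tt * ee v * tt = ee w := by decide +kernel
theorem cent_check : ∀ v : Fin 16, ee v * ss = ss * ee v → ee v * tt = tt * ee v → v = 0 ∨ v = 5 := by
  decide +kernel

/-- `E`, elementary abelian of order 16 in `A_8` -/
def EE : Subgroup (alternatingGroup (Fin 8)) where
  carrier := Set.range fun v : Fin 16 => ⟨ee v, Perm.mem_alternatingGroup.2 (ee_sign v)⟩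
  one_mem' := ⟨0, Subtype.ext ee_zero⟩
  mul_mem' := by
    rintro _ _ ⟨v, rfl⟩ ⟨w, rfl⟩
    exact ⟨xor16 v w, Subtype.ext (ee_mul v w).symm⟩
  inv_mem' := by
    rintro _ ⟨v, rfl⟩
    refine ⟨v, Subtype.ext ?_⟩
    show ee v = (ee v)⁻¹
    rw [eq_inv_iff_mul_eq_one, ee_mul, xor_self, ee_zero]

/-- `s ∈ A_8` -/
def sA : alternatingGroup (Fin 8) := ⟨ss, Perm.mem_alternatingGroup.2 ss_sign⟩
/-- `t ∈ A_8` -/
def tA : alternatingGroup (Fin 8) := ⟨tt, Perm.mem_alternatingGroup.2 tt_sign⟩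

theorem mem_EE {x : alternatingGroup (Fin 8)} : x ∈ EE ↔ ∃ v : Fin 16, ee v = x := by
  constructor
  · rintro ⟨v, hv⟩
    exact ⟨v, congrArg Subtype.val hv⟩
  · rintro ⟨v, hv⟩
    exact ⟨v, Subtype.ext hv⟩

theorem card_EE : Nat.card EE = 16 := by
  have h : Function.Injective fun v : Fin 16 =>
      (⟨ee v, Perm.mem_alternatingGroup.2 (ee_sign v)⟩ : alternatingGroup (Fin 8)) := by
    intro v w h
    exact ee_inj v w (congrArg Subtype.val h)
  have h2 : Nat.card EE = Nat.card (Set.range fun v : Fin 16 =>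
      (⟨ee v, Perm.mem_alternatingGroup.2 (ee_sign v)⟩ : alternatingGroup (Fin 8))) := rfl
  rw [h2, Nat.card_range_of_injective h, Nat.card_eq_fintype_card, Fintype.card_fin]

theorem EE_comm : ∀ x ∈ EE, ∀ y ∈ EE, x * y = y * x := by
  intro x hx y hy
  obtain ⟨v, hv⟩ := mem_EE.1 hx
  obtain ⟨w, hw⟩ := mem_EE.1 hy
  apply Subtype.ext
  show (x : Perm (Fin 8)) * y = y * x
  rw [← hv, ← hw, ee_mul, ee_mul, xor_comm]

theorem EE_sq : ∀ x ∈ EE, x ^ 2 = 1 := by
  intro x hx
  obtain ⟨v, hv⟩ := mem_EE.1 hx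
  apply Subtype.ext
  show (x : Perm (Fin 8)) ^ 2 = 1
  rw [← hv, pow_two, ee_mul, xor_self, ee_zero]

theorem sA_mul : sA * sA = 1 := Subtype.ext ss_sq
theorem tA_mul : tA * tA = 1 := Subtype.ext tt_sq

theorem sA_norm : sA ∈ Subgroup.normalizer EE := by
  rw [Subgroup.mem_normalizer_iff]
  have hinv : sA⁻¹ = sA := inv_eq_of_mul_eq_one_right sA_mul
  have key : ∀ x ∈ EE, sA * x * sA⁻¹ ∈ EE := by
    intro x hx
    obtain ⟨v, hv⟩ := mem_EE.1 hx
    obtain ⟨w, hw⟩ := ss_norm v
    rw [mem_EE, hinv]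
    refine ⟨w, ?_⟩
    show ee w = ss * (x : Perm (Fin 8)) * ss
    rw [← hw, hv]
  intro x
  refine ⟨key x, fun h => ?_⟩
  have := key _ h
  rw [hinv] at this
  rwa [show sA * (sA * x * sA) * sA = (sA * sA) * x * (sA * sA) by group, sA_mul, one_mul, mul_one] at this

theorem tA_norm : tA ∈ Subgroup.normalizer EE := by
  rw [Subgroup.mem_normalizer_iff]
  have hinv : tA⁻¹ = tA := inv_eq_of_mul_eq_one_right tA_mul
  have key : ∀ x ∈ EE, tA * x * tA⁻¹ ∈ EE := by
    intro x hx
    obtain ⟨v, hv⟩ := mem_EE.1 hx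
    obtain ⟨w, hw⟩ := tt_norm v
    rw [mem_EE, hinv]
    refine ⟨w, ?_⟩
    show ee w = tt * (x : Perm (Fin 8)) * tt
    rw [← hw, hv]
  intro x
  refine ⟨key x, fun h => ?_⟩
  have := key _ h
  rw [hinv] at this
  rwa [show tA * (tA * x * tA) * tA = (tA * tA) * x * (tA * tA) by group, tA_mul, one_mul, mul_one] at this

/-- the 2-subgroup `⟨s, t⟩ E` -/
def QQ : Subgroup (alternatingGroup (Fin 8)) := (Subgroup.zpowers sA ⊔ Subgroup.zpowers tA) ⊔ EE

theorem QQ_isPGroup : IsPGroup 2 QQ := by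
  have hfact : Fact (Nat.Prime 2) := ⟨Nat.prime_two⟩
  have hs : IsPGroup 2 (Subgroup.zpowers sA) := by
    rw [IsPGroup.iff_card]
    obtain ⟨k, _, hk⟩ := (Nat.dvd_prime_pow Nat.prime_two).1 (show orderOf sA ∣ 2 ^ 1 by
      rw [pow_one]; exact orderOf_dvd_of_pow_eq_one (by rw [pow_two, sA_mul]))
    exact ⟨k, by rw [Nat.card_zpowers, hk]⟩
  have ht : IsPGroup 2 (Subgroup.zpowers tA) := by
    rw [IsPGroup.iff_card]
    obtain ⟨k, _, hk⟩ := (Nat.dvd_prime_pow Nat.prime_two).1 (show orderOf tA ∣ 2 ^ 1 by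
      rw [pow_one]; exact orderOf_dvd_of_pow_eq_one (by rw [pow_two, tA_mul]))
    exact ⟨k, by rw [Nat.card_zpowers, hk]⟩
  have hE : IsPGroup 2 EE := IsPGroup.of_card (n := 4) (by rw [card_EE]; norm_num)
  have hst : IsPGroup 2 (Subgroup.zpowers sA ⊔ Subgroup.zpowers tA : Subgroup (alternatingGroup (Fin 8))) := by
    apply IsPGroup.to_sup_of_normal_right' hs ht
    rw [Subgroup.zpowers_le]
    apply Subgroup.centralizer_le_normalizer
    rw [Subgroup.mem_centralizer_iff]
    rintro _ ⟨k, rfl⟩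
    have hc : Commute tA sA := Subtype.ext st_comm.symm
    exact (hc.zpow_left k).eq
  apply IsPGroup.to_sup_of_normal_right' hst hE
  rw [sup_le_iff, Subgroup.zpowers_le, Subgroup.zpowers_le]
  exact ⟨sA_norm, tA_norm⟩

/-! ### the bound -/

/-- **No alternating section of degree at least 8** in a finite group with an abelian subgroup `T` with at most 4 solutions of
`x ^ 2 = 1` and `8 ∤ |G : T|`. -/
theorem le_seven {G : Type*} [Group G] [Finite G] (T : Subgroup G) (hT : ∀ x ∈ T, ∀ y ∈ T, x * y = y * x)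
    (hT2 : Nat.card {x : T // x ^ 2 = 1} ≤ 4) (hidx : ¬ 8 ∣ T.index) (H : Subgroup G) {r : ℕ}
    (f : H →* alternatingGroup (Fin r)) (hf : Function.Surjective f) : r ≤ 7 := by
  classical
  by_contra hr
  have hr8 : 8 ≤ r := by omega
  have hfact : Fact (Nat.Prime 2) := ⟨Nat.prime_two⟩
  set ι := AltElts.embAlt hr8 with hι
  have hιi := AltElts.embAlt_injective hr8
  obtain ⟨R, hR⟩ := (QQ_isPGroup.map ι).exists_le_sylow
  obtain ⟨P, hP⟩ := Sylow.mapSurjective_surjective hf 2 R
  have hPR : P.toSubgroup.map f = R := by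
    rw [← hP, Sylow.coe_mapSurjective]
  -- the action of `P` on `G ⧸ T`
  let P' : Subgroup G := P.toSubgroup.map H.subtype
  have hP' : IsPGroup 2 P' := P.isPGroup'.map _
  obtain ⟨c, hc⟩ := exists_small_orbit (α := G ⧸ T) hP' hidx
  obtain ⟨g, rfl⟩ := QuotientGroup.mk_surjective c
  -- the restriction of `f` to `P`
  let F : P.toSubgroup →* R.toSubgroup := (f.comp P.toSubgroup.subtype).codRestrict R.toSubgroup (fun x => by
    rw [← hPR]; exact ⟨x, x.2, rfl⟩)
  have hF : Function.Surjective F := by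
    rintro ⟨y, hy⟩
    rw [← hPR] at hy
    obtain ⟨x, hx, rfl⟩ := hy
    exact ⟨⟨x, hx⟩, rfl⟩
  let j : P.toSubgroup ≃* P' := P.toSubgroup.equivMapOfInjective H.subtype H.subtype_injective
  let V0 : Subgroup P.toSubgroup := (MulAction.stabilizer P' (g : G ⧸ T)).comap j.toMonoidHom
  have hV0i : V0.index ≤ 4 := by
    rw [Subgroup.index_comap_of_surjective _ j.surjective]
    exact hc
  have hV0 : ∀ x ∈ V0, g⁻¹ * (x : G) * g ∈ T := by
    intro x hx
    have h2 : (((x : G) * g : G) : G ⧸ T) = (g : G ⧸ T) := hx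
    have h3 := QuotientGroup.eq.1 h2.symm
    rwa [← mul_assoc] at h3
  have hV0comm : ∀ x ∈ V0, ∀ y ∈ V0, x * y = y * x := by
    intro x hx y hy
    apply Subtype.ext
    apply Subtype.ext
    have h1 := hT _ (hV0 x hx) _ (hV0 y hy)
    have h2 : g⁻¹ * ((x : G) * y) * g = g⁻¹ * ((y : G) * x) * g := by
      calc g⁻¹ * ((x : G) * y) * g = g⁻¹ * (x : G) * g * (g⁻¹ * (y : G) * g) := by group
        _ = g⁻¹ * (y : G) * g * (g⁻¹ * (x : G) * g) := h1
        _ = _ := by group
    simpa using h2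
  have hV02 : Nat.card {x : V0 // x ^ 2 = 1} ≤ 4 := by
    refine le_trans (Nat.card_le_card_of_injective
      (fun x : {x : V0 // x ^ 2 = 1} =>
        (⟨⟨g⁻¹ * ((x.1 : P.toSubgroup) : G) * g, hV0 _ x.1.2⟩, ?_⟩ : {x : T // x ^ 2 = 1})) ?_) hT2
    · apply Subtype.ext
      have h1 : (((x.1 : P.toSubgroup) : G)) ^ 2 = 1 :=
        congrArg (fun z : V0 => (((z : P.toSubgroup) : H) : G)) x.2
      show (g⁻¹ * ((x.1 : P.toSubgroup) : G) * g) ^ 2 = 1
      rw [pow_two] at h1 ⊢
      calc g⁻¹ * ((x.1 : P.toSubgroup) : G) * g * (g⁻¹ * ((x.1 : P.toSubgroup) : G) * g)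
          = g⁻¹ * (((x.1 : P.toSubgroup) : G) * ((x.1 : P.toSubgroup) : G)) * g := by group
        _ = 1 := by rw [h1]; group
    · intro x y h
      have h1 : g⁻¹ * ((x.1 : P.toSubgroup) : G) * g = g⁻¹ * ((y.1 : P.toSubgroup) : G) * g :=
        congrArg (fun z : {x : T // x ^ 2 = 1} => ((z : T) : G)) h
      apply Subtype.ext
      apply Subtype.ext
      apply Subtype.ext
      apply Subtype.ext
      simpa using h1
  -- the image
  set V : Subgroup R.toSubgroup := V0.map F with hV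
  have hVi : V.index ≤ 4 :=
    le_trans (Nat.le_of_dvd (Nat.pos_of_ne_zero Subgroup.index_ne_zero_of_finite) (Subgroup.index_map_dvd _ hF)) hV0i
  have hVcomm : ∀ x ∈ V, ∀ y ∈ V, x * y = y * x := by
    rintro _ ⟨x, hx, rfl⟩ _ ⟨y, hy, rfl⟩
    rw [← map_mul, ← map_mul, hV0comm x hx y hy]
  have hV2 : Nat.card {x : V // x ^ 2 = 1} ≤ 4 := by
    let i1 : CommGroup V0 := { (inferInstance : Group V0) with
      mul_comm := fun x y => Subtype.ext (hV0comm x x.2 y y.2) }
    let i2 : CommGroup V := { (inferInstance : Group V) with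
      mul_comm := fun x y => Subtype.ext (hVcomm x x.2 y y.2) }
    exact le_trans (card_two_le (M := V0) (N := V) (F.subgroupMap V0) (F.subgroupMap_surjective V0)) hV02
  -- `E`
  have hQR : ∀ x ∈ QQ, ι x ∈ R := fun x hx => hR ⟨x, hx, rfl⟩
  have hER : EE.map ι ≤ R.toSubgroup := by
    rintro _ ⟨x, hx, rfl⟩
    exact hQR x (Subgroup.mem_sup_right hx)
  set E : Subgroup R.toSubgroup := (EE.map ι).subgroupOf R.toSubgroup with hE
  have hEmem : ∀ x ∈ E, ∃ v : Fin 16, ∃ y : alternatingGroup (Fin 8), ee v = y ∧ ι y = x := by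
    intro x hx
    obtain ⟨y, hy, hyx⟩ := hx
    obtain ⟨v, hv⟩ := mem_EE.1 hy
    exact ⟨v, y, hv, hyx⟩
  have hE16 : Nat.card E = 16 := by
    rw [hE, Nat.card_congr (Subgroup.subgroupOfEquivOfLe hER).toEquiv,
      ← Nat.card_congr (EE.equivMapOfInjective ι hιi).toEquiv, card_EE]
  have hEcomm : ∀ x ∈ E, ∀ y ∈ E, x * y = y * x := by
    intro x hx y hy
    obtain ⟨x', hx', hx''⟩ := hx
    obtain ⟨y', hy', hy''⟩ := hy
    apply Subtype.ext
    show (x : alternatingGroup (Fin r)) * y = y * x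
    have e1 : ι x' = (x : alternatingGroup (Fin r)) := hx''
    have e2 : ι y' = (y : alternatingGroup (Fin r)) := hy''
    rw [← e1, ← e2, ← map_mul, ← map_mul, EE_comm x' hx' y' hy']
  have hE2 : ∀ x ∈ E, x ^ 2 = 1 := by
    intro x hx
    obtain ⟨x', hx', hx''⟩ := hx
    apply Subtype.ext
    show (x : alternatingGroup (Fin r)) ^ 2 = 1
    have e1 : ι x' = (x : alternatingGroup (Fin r)) := hx''
    rw [← e1, ← map_pow, EE_sq x' hx', map_one]
  obtain ⟨hc4, hcen⟩ := central_four V E hVcomm hEcomm hE2 hE16 hV2 hVi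
  -- but at most two elements of `E` commute with `s` and `t`
  have hle2 : Nat.card (V ⊓ E : Subgroup R.toSubgroup) ≤ 2 := by
    have hsR : ι sA ∈ R := hQR sA (Subgroup.mem_sup_left (Subgroup.mem_sup_left (Subgroup.mem_zpowers sA)))
    have htR : ι tA ∈ R := hQR tA (Subgroup.mem_sup_left (Subgroup.mem_sup_right (Subgroup.mem_zpowers tA)))
    have key : ∀ z : (V ⊓ E : Subgroup R.toSubgroup), ∃ v : Fin 16, (v = 0 ∨ v = 5) ∧
        ∃ y : alternatingGroup (Fin 8), ee v = y ∧ ι y = ((z : R.toSubgroup) : alternatingGroup (Fin r)) := by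
      intro z
      obtain ⟨v, y, hy, hyz⟩ := hEmem z.1 z.2.2
      refine ⟨v, ?_, y, hy, hyz⟩
      have h1 := congrArg Subtype.val (hcen z.1 z.2 ⟨ι sA, hsR⟩)
      have h2 := congrArg Subtype.val (hcen z.1 z.2 ⟨ι tA, htR⟩)
      have h1' : ι y * ι sA = ι sA * ι y := by rw [hyz]; exact h1
      have h2' : ι y * ι tA = ι tA * ι y := by rw [hyz]; exact h2
      rw [← map_mul, ← map_mul] at h1' h2'
      have h1'' := congrArg Subtype.val (hιi h1')
      have h2'' := congrArg Subtype.val (hιi h2')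
      apply cent_check
      · rw [hy]; exact h1''
      · rw [hy]; exact h2''
    choose v hv y hy hyz using key
    have hinj : Function.Injective (fun z => (⟨v z, by
        rcases hv z with h | h <;> simp [h]⟩ : ({0, 5} : Finset (Fin 16)))) := by
      intro z w h
      have h1 : v z = v w := congrArg Subtype.val h
      have h2 : y z = y w := Subtype.ext (by rw [← hy, ← hy, h1])
      apply Subtype.ext
      apply Subtype.ext
      rw [← hyz, ← hyz, h2]
    have := Nat.card_le_card_of_injective _ hinj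
    rw [Nat.card_eq_fintype_card (α := ({0, 5} : Finset (Fin 16))), Fintype.card_coe] at this
    exact this
  omega

end Cfsg.Agent.H191.AltTwo
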