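import Cfsg.Agent.H191.CrossE

/-!
# CROSS: `q² - 1` divides a degree, or twice `q + 1` times a prime of `q - 1` does
-/

set_option autoImplicit false
set_option linter.unusedSectionVars false
open Cfsg

namespace Cfsg.Agent.H191.Cross

open Cfsg.Agent.ClassicalGeometry
open Cfsg.Agent.Characters.Core
open Cfsg.Agent.H672
open scoped commutatorElement

universe u

section main
variable {X : Type u} [Group X] [Finite X] (V : Subgroup X) [hVn : V.Normal]
  {F : Type} [Field F] [Fintype F] (π : X →* P2 F)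

/-- the conclusion of the strongest form -/
def ConclF (X : Type u) [Group X] (q : ℕ) : Prop :=
  (∃ d ∈ charDegrees X, q ^ 2 - 1 ∣ d) ∨
    (∃ x : ℕ, x.Prime ∧ x ∣ q - 1 ∧ ∃ d ∈ charDegrees X, 2 * x * (q + 1) ∣ d)

theorem index_PP (Q : Sylow 2 (P2 F)) (l : V →* ℂˣ) (hQJ : (Q : Subgroup (P2 F)) ≤ (inertia V (lf l)).map π) :
    (PP V π Q l).index * Nat.card (Q : Subgroup (P2 F)) = Nat.card ((inertia V (lf l)).map π) := by
  have h1 : PP V π Q l = ((Q : Subgroup (P2 F)).subgroupOf ((inertia V (lf l)).map π)).comap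
      (π.subgroupMap (inertia V (lf l))) := rfl
  rw [h1, Subgroup.index_comap_of_surjective _ (π.subgroupMap_surjective (inertia V (lf l))),
    ← Nat.card_congr (Subgroup.subgroupOfEquivOfLe hQJ).toEquiv, mul_comm]
  exact Subgroup.card_mul_index _

theorem main_evenF (hF : Even (Fintype.card F)) (h4 : 4 < Fintype.card F)
    (hVc : ∀ x ∈ V, ∀ y ∈ V, x * y = y * x) (hπ : Function.Surjective π) (hker : π.ker = V)
    (Q : Sylow 2 (P2 F)) (hV2 : ∀ v ∈ V, v * v = 1) (l : V →* ℂˣ)
    (hfix : ∀ x : X, π x ∈ Q → x ∈ inertia V (lf l))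
    (hJ : (inertia V (lf l)).map π ≠ ⊤) :
    ConclF X (Fintype.card F) := by
  classical
  have := charTwo hF
  have h1 : 1 < Fintype.card F := Fintype.one_lt_card
  have hVI : V ≤ inertia V (lf l) := le_inertia' V hVc l
  have hQJ : (Q : Subgroup (P2 F)) ≤ (inertia V (lf l)).map π := by
    intro b hb
    obtain ⟨x, rfl⟩ := hπ b
    exact ⟨x, hfix x hb, rfl⟩
  have hcQ : Nat.card (Q : Subgroup (P2 F)) = Fintype.card F := card_sylow hF h4 Q
  have hcard : Fintype.card F ≤ 2 * Nat.card ((inertia V (lf l)).map π ⊓ (Q : Subgroup (P2 F)) : Subgroup (P2 F)) := by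
    rw [inf_eq_right.2 hQJ, hcQ]
    omega
  have hle := le_normalizer_of_large' hF h4 Q _ hJ hcard
  have hidx : Fintype.card F + 1 ∣ ((inertia V (lf l)).map π).index := by
    rw [← H436.TT.index_normalizer 2 Q]
    exact Subgroup.index_dvd_of_le hle
  obtain ⟨k, hk⟩ := hidx
  obtain ⟨m, hm⟩ : Fintype.card F ∣ Nat.card ((inertia V (lf l)).map π) := by
    rw [← hcQ]; exact Subgroup.card_dvd_of_le hQJ
  have hmul := Subgroup.card_mul_index ((inertia V (lf l)).map π)
  rw [hk, hm, Classification.PSLTwoEvenSylow.card_psl, fac _ h1] at hmul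
  have hmk : m * k = Fintype.card F - 1 := by
    have h2 : Fintype.card F * (Fintype.card F + 1) * (m * k) =
        Fintype.card F * (Fintype.card F + 1) * (Fintype.card F - 1) := by
      calc Fintype.card F * (Fintype.card F + 1) * (m * k) = Fintype.card F * m * ((Fintype.card F + 1) * k) := by ring
        _ = Fintype.card F * ((Fintype.card F - 1) * (Fintype.card F + 1)) := hmul
        _ = _ := by ring
    exact Nat.eq_of_mul_eq_mul_left (by positivity) h2
  have hPm : (PP V π Q l).index = m := by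
    have h2 := index_PP V π Q l hQJ
    rw [hm, hcQ, mul_comm] at h2
    exact Nat.eq_of_mul_eq_mul_left (by omega) h2
  have hPn : (PP V π Q l).Normal := by
    constructor
    rintro ⟨y, hyI⟩ hy ⟨g, hg⟩
    have h5 : π y ∈ (Q : Subgroup (P2 F)) := hy
    show π (g * y * g⁻¹) ∈ (Q : Subgroup (P2 F))
    rw [map_mul, map_mul, map_inv]
    exact (Subgroup.mem_normalizer_iff.1 (hle ⟨g, hg, rfl⟩) _).1 h5
  by_cases hext : ∃ φ : PP V π Q l →* ℂˣ, ∀ v : V, φ (embV V π hVc hker Q l v) = l v
  · left
    obtain ⟨φ, hφ⟩ := hext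
    let ρ : PP V π Q l →* (Q : Subgroup (P2 F)) :=
      (π.comp ((inertia V (lf l)).subtype.comp (PP V π Q l).subtype)).codRestrict _ (fun x => x.2)
    have hρ : ∀ x : PP V π Q l, (ρ x : P2 F) = π (x : X) := fun _ => rfl
    have hdeg : ∀ ν : (Q : Subgroup (P2 F)) →* ℂˣ, ∃ d ∈ charDegrees X,
        (inertia V (lf l)).index * (H672.inertia (PP V π Q l) (lf (φ * ν.comp ρ))).index ∣ d := by
      intro ν
      refine exists_degree V (inertia V (lf l)) l rfl (PP V π Q l) hVI
        (fun v => (embV V π hVc hker Q l v).2) (φ * ν.comp ρ) ?_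
      intro v
      have h5 : ρ (embV V π hVc hker Q l v) = 1 := by
        apply Subtype.ext
        rw [hρ]
        have : (v : X) ∈ π.ker := by rw [hker]; exact v.2
        exact this
      show φ (embV V π hVc hker Q l v) * ν (ρ (embV V π hVc hker Q l v)) = l v
      rw [h5, map_one, mul_one, hφ]
    have hcomQ : ∀ x y : (Q : Subgroup (P2 F)), x * y = y * x := fun x y => Subtype.ext (comm_of hF Q x.2 y.2)
    have hPle : ∀ ν : (Q : Subgroup (P2 F)) →* ℂˣ,
        PP V π Q l ≤ H672.inertia (PP V π Q l) (lf (φ * ν.comp ρ)) := fun ν =>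
      le_inertia (isCharacter_isClassFunction (isCharacter_lf _))
    -- a good extension
    obtain ⟨ν, hν⟩ : ∃ ν : (Q : Subgroup (P2 F)) →* ℂˣ,
        H672.inertia (PP V π Q l) (lf (φ * ν.comp ρ)) ≤ PP V π Q l := by
      by_contra hcon
      push Not at hcon
      have hx : ∀ ν : (Q : Subgroup (P2 F)) →* ℂˣ, ∃ x : inertia V (lf l),
          x ∈ H672.inertia (PP V π Q l) (lf (φ * ν.comp ρ)) ∧ x ∉ PP V π Q l := by
        intro ν
        exact SetLike.not_le_iff_exists.1 (hcon ν)
      choose x hx1 hx2 using hx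
      have hfin : Finite ((Q : Subgroup (P2 F)) →* ℂˣ) := by
        apply Nat.finite_of_card_ne_zero
        rw [card_lin hcomQ]
        exact Nat.card_pos.ne'
      have hni : ¬ Function.Injective (fun ν : (Q : Subgroup (P2 F)) →* ℂˣ =>
          (QuotientGroup.mk (x ν) : inertia V (lf l) ⧸ PP V π Q l)) := by
        intro hinj
        have h5 := Nat.card_le_card_of_injective _ hinj
        rw [card_lin hcomQ, hcQ, ← Subgroup.index_eq_card, hPm] at h5
        have h6 : 0 < k := by
          rcases Nat.eq_zero_or_pos k with h | h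
          · rw [h, mul_zero] at hmk; omega
          · exact h
        have h7 : m ≤ m * k := Nat.le_mul_of_pos_right m h6
        omega
      rw [Function.not_injective_iff] at hni
      obtain ⟨ν, ν', he, hne⟩ := hni
      -- the element `x ν'` fixes both
      have e1 : x ν' ∈ H672.inertia (PP V π Q l) (lf (φ * ν.comp ρ)) := by
        have h5 := QuotientGroup.eq.1 he
        have h6 := mul_mem (hx1 ν) (hPle ν h5)
        rwa [mul_inv_cancel_left] at h6
      have e2 := hx1 ν'
      have hxP := hx2 ν'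
      set c : inertia V (lf l) := x ν' with hc
      rw [mem_inertia_lf] at e1 e2
      have hcJ : π (c : X) ∈ (inertia V (lf l)).map π := ⟨c, c.2, rfl⟩
      have hcN := hle hcJ
      -- `c` acts on `Q`
      let γ : ↥(Q : Subgroup (P2 F)) → ↥(Q : Subgroup (P2 F)) := fun y =>
        ⟨π (c : X) * y * (π (c : X))⁻¹ * (y : P2 F)⁻¹,
          mul_mem ((Subgroup.mem_normalizer_iff.1 hcN _).1 y.2) (inv_mem y.2)⟩
      have hγ : ∀ y, ((γ y : (Q : Subgroup (P2 F))) : P2 F) = π (c : X) * y * (π (c : X))⁻¹ * (y : P2 F)⁻¹ :=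
        fun _ => rfl
      have hγi : Function.Injective γ := by
        intro y z hyz
        have h5 : π (c : X) * y * (π (c : X))⁻¹ * (y : P2 F)⁻¹ = π (c : X) * z * (π (c : X))⁻¹ * (z : P2 F)⁻¹ :=
          congrArg Subtype.val hyz
        -- `y⁻¹ z` is centralised by `π c`
        have hzc : π (c : X) * ((y : P2 F)⁻¹ * z) * (π (c : X))⁻¹ = (y : P2 F)⁻¹ * z := by
          have ha : π (c : X) * z * (π (c : X))⁻¹ ∈ (Q : Subgroup (P2 F)) := (Subgroup.mem_normalizer_iff.1 hcN _).1 z.2
          have hb : π (c : X) * y * (π (c : X))⁻¹ ∈ (Q : Subgroup (P2 F)) := (Subgroup.mem_normalizer_iff.1 hcN _).1 y.2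
          have e3 : π (c : X) * ((y : P2 F)⁻¹ * z) * (π (c : X))⁻¹ =
              (π (c : X) * y * (π (c : X))⁻¹)⁻¹ * (π (c : X) * z * (π (c : X))⁻¹) := by group
          have e4 : π (c : X) * z * (π (c : X))⁻¹ = π (c : X) * y * (π (c : X))⁻¹ * ((y : P2 F)⁻¹ * z) := by
            have h6 := congrArg (· * (z : P2 F)) h5
            simp only [inv_mul_cancel_right] at h6
            rw [← h6]; group
          rw [e3, e4, inv_mul_cancel_left]
        by_contra hyz'
        have hne1 : (y : P2 F)⁻¹ * z ≠ 1 := by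
          intro h
          apply hyz'
          exact Subtype.ext (inv_mul_eq_one.1 h)
        have hQm : (y : P2 F)⁻¹ * z ∈ (Q : Subgroup (P2 F)) := mul_mem (inv_mem y.2) z.2
        have h6 := WeakTI.PslTwo.cent (MulEquiv.refl (P2 F)) (sq_one hF Q hQm) hne1
          (mul_inv_eq_iff_eq_mul.1 hzc).symm
        apply hxP
        rw [mem_PP]
        refine le_sylow_of_isPGroup Q (Subgroup.zpowers (π (c : X))) ?_ ?_ (Subgroup.mem_zpowers _)
        · rw [Subgroup.zpowers_le]; exact hcN
        · rintro ⟨y, k, rfl⟩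
          refine ⟨1, ?_⟩
          apply Subtype.ext
          show (π (c : X) ^ k) ^ (2 ^ 1) = 1
          rw [pow_one, ← zpow_natCast, ← zpow_mul, mul_comm, zpow_mul, zpow_natCast, pow_two, h6, one_zpow]
      have hγs : Function.Surjective γ := Finite.surjective_of_injective hγi
      apply hne
      ext z
      obtain ⟨y, rfl⟩ := hγs z
      congr 1
      obtain ⟨w, hw⟩ := hπ (y : P2 F)
      have hwI : w ∈ inertia V (lf l) := hfix w (by rw [hw]; exact y.2)
      let wP : PP V π Q l := ⟨⟨w, hwI⟩, by rw [mem_PP]; show π w ∈ _; rw [hw]; exact y.2⟩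
      have e3 := e1 wP
      have e4 := e2 wP
      have hr1 : ρ wP = y := Subtype.ext hw
      have hr2 : ρ (MulAut.conjNormal c wP) = γ y * y := by
        apply Subtype.ext
        rw [hρ]
        show π ((c : X) * w * (c : X)⁻¹) = π (c : X) * y * (π (c : X))⁻¹ * (y : P2 F)⁻¹ * (y : P2 F)
        rw [map_mul, map_mul, map_inv, hw, inv_mul_cancel_right]
      simp only [MonoidHom.mul_apply, MonoidHom.comp_apply, hr1, hr2, map_mul] at e3 e4
      -- `φ (w ^ c) ν (γ y) ν y = φ w ν y`
      have e5 : φ (MulAut.conjNormal c wP) * ν (γ y) = φ wP := by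
        apply mul_right_cancel (b := ν y)
        rw [mul_assoc]; exact e3
      have e6 : φ (MulAut.conjNormal c wP) * ν' (γ y) = φ wP := by
        apply mul_right_cancel (b := ν' y)
        rw [mul_assoc]; exact e4
      exact mul_left_cancel (e5.trans e6.symm)
    obtain ⟨d, hd, hdd⟩ := hdeg ν
    have h5 : H672.inertia (PP V π Q l) (lf (φ * ν.comp ρ)) = PP V π Q l := le_antisymm hν (hPle ν)
    rw [h5, hPm, ← index_map V π hVc hπ hker l, hk] at hdd
    refine ⟨d, hd, ?_⟩
    rw [fac _ h1, ← hmk]
    have h6 : m * k * (Fintype.card F + 1) = (Fintype.card F + 1) * k * m := by ring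
    rw [h6]
    exact hdd
  · right
    have hk1 : k ≠ 1 := by
      intro hk1
      apply hext
      rw [hk1, mul_one] at hmk
      refine exists_extension V π hF h4 hVc hπ hker Q hV2 l hfix ?_
      intro a b ha ha1 hb hb1
      exact trans_of_dvd hF h4 Q _ hle (by rw [hm, hmk]; exact Dvd.intro_left _ rfl) ha ha1 hb hb1
    obtain ⟨r, hr, hrk⟩ := Nat.exists_prime_and_dvd hk1
    refine ⟨r, hr, ?_, ?_⟩
    · rw [← hmk]; exact hrk.mul_left _
    -- a character of even degree
    let f := embV V π hVc hker Q l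
    obtain ⟨χ, hχ, hχo⟩ := exists_over V (lf l) (isIrr_lf l)
    let g : PP V π Q l →* X := (inertia V (lf l)).subtype.comp (PP V π Q l).subtype
    have hgf : V.subtype = g.comp f := rfl
    rw [hgf, over_comp_iff g f (isIrr_isCharacter hχ) (isIrr_lf l)] at hχo
    obtain ⟨ξ, hξ, hξo, hξl⟩ := hχo
    rw [over_comp_iff (inertia V (lf l)).subtype (PP V π Q l).subtype (isIrr_isCharacter hχ) hξ] at hξo
    obtain ⟨ψ, hψ, -, hψξ⟩ := hξo
    have hdvd := (charDegree_dvd_of_over (PP V π Q l) hψ hξ hψξ).1
    have hψl : Over (Subgroup.inclusion hVI) ψ (lf l) := by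
      have h5 : Subgroup.inclusion hVI = (PP V π Q l).subtype.comp f := rfl
      rw [h5, over_comp_iff _ _ (isIrr_isCharacter hψ) (isIrr_lf l)]
      exact ⟨ξ, hξ, hψξ, hξl⟩
    have hmem := degree_of_over V l hVI hψ hψl
    refine ⟨_, hmem, ?_⟩
    have heven : 2 ∣ charDegree ξ := by
      -- the degree is a power of two
      have hP2 : IsPGroup 2 (PP V π Q l) := by
        intro z
        refine ⟨2, ?_⟩
        have h5 := hV2 _ (sq_mem V π hF hker Q z.2)
        apply Subtype.ext
        apply Subtype.ext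
        show (((z : inertia V (lf l)) : X)) ^ (2 ^ 2) = 1
        rw [show (((z : inertia V (lf l)) : X)) ^ (2 ^ 2) = ((z : inertia V (lf l)) : X) * ((z : inertia V (lf l)) : X) *
          (((z : inertia V (lf l)) : X) * ((z : inertia V (lf l)) : X)) by simp [pow_succ, mul_assoc]]
        exact h5
      obtain ⟨n, hn⟩ := IsPGroup.iff_card.1 hP2
      have hdc : charDegree ξ ∣ Nat.card (PP V π Q l) := by
        obtain ⟨n', ρ', hρ', h'⟩ := hξ
        have e1 : charDegree ξ = Module.finrank ℂ (Fin n' → ℂ) := by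
          apply charDegree_of_eq
          rw [← h', Representation.char_one]
        rw [e1]
        have := hρ'
        exact Characters.DegreeBounds.finrank_dvd_card ρ'
      rw [hn, Nat.dvd_prime_pow Nat.prime_two] at hdc
      obtain ⟨b, -, hb⟩ := hdc
      rcases Nat.eq_zero_or_pos b with h0 | h0
      · exfalso
        rw [h0, pow_zero] at hb
        obtain ⟨φ, hφ⟩ := exists_hom_of_degree_one hξ hb
        apply hext
        refine ⟨φ, fun v => ?_⟩
        have h6 := eq_of_over_of_charDegree_eq hξ (isIrr_lf l) hξl (by rw [hb, charDegree_lf])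
        have h7 := congrFun h6 v
        rw [hφ] at h7
        exact Units.ext h7
      · rw [hb]; exact dvd_pow_self 2 h0.ne'
    rw [← index_map V π hVc hπ hker l, hk]
    have h5 : 2 * r * (Fintype.card F + 1) = (Fintype.card F + 1) * r * 2 := by ring
    rw [h5]
    exact Nat.mul_dvd_mul (Nat.mul_dvd_mul_left _ hrk) (heven.trans hdvd)

end main

/-- **CROSS, strongest form.** -/
theorem crossF {X : Type u} [Group X] [Finite X] (V : Subgroup X) [V.Normal]
    (hVc : ∀ x ∈ V, ∀ y ∈ V, x * y = y * x)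
    (hmin : ∀ N : Subgroup X, N.Normal → N ≤ V → N = ⊥ ∨ N = V)
    (hVz : ¬ V ≤ Subgroup.center X) (F : Type) [Field F] [Fintype F]
    (hF : Even (Fintype.card F)) (h4 : 4 < Fintype.card F)
    (e : X ⧸ V ≃* Matrix.ProjectiveSpecialLinearGroup (Fin 2) F) :
    (∃ d ∈ Cfsg.charDegrees X, Fintype.card F ^ 2 - 1 ∣ d) ∨
      (∃ x : ℕ, x.Prime ∧ x ∣ Fintype.card F - 1 ∧
        ∃ d ∈ Cfsg.charDegrees X, 2 * x * (Fintype.card F + 1) ∣ d) := by
  classical
  let π : X →* P2 F := e.toMonoidHom.comp (QuotientGroup.mk' V)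
  have hπ : Function.Surjective π := e.surjective.comp (QuotientGroup.mk'_surjective V)
  have hker : π.ker = V := by
    ext x
    rw [MonoidHom.mem_ker]
    show e (QuotientGroup.mk x) = 1 ↔ x ∈ V
    rw [map_eq_one_iff e e.injective, QuotientGroup.eq_one_iff]
  have hVcom : ∀ v w : V, v * w = w * v := fun v w => Subtype.ext (hVc v v.2 w w.2)
  have hVbot : V ≠ ⊥ := by
    rintro rfl
    exact hVz bot_le
  obtain ⟨p, hp, hpV⟩ := exists_exponent V hmin hVc hVbot
  have hcard := card_lin hVcom
  have hfin : Finite (V →* ℂˣ) := by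
    apply Nat.finite_of_card_ne_zero
    rw [hcard]
    exact Nat.card_pos.ne'
  have Q : Sylow 2 (P2 F) := default
  -- a nontrivial linear character is not invariant
  have hninv : ∀ l : V →* ℂˣ, l ≠ 1 → (inertia V (lf l)).map π ≠ ⊤ := by
    intro l hl h
    have hall : ∀ x : X, x ∈ inertia V (lf l) := by
      intro x
      rw [← mem_map_iff V π hVc hker l, h]
      trivial
    let K : Subgroup X := l.ker.map V.subtype
    have hK : K.Normal := by
      constructor
      rintro _ ⟨v, hv, rfl⟩ g
      refine ⟨MulAut.conjNormal g v, ?_, rfl⟩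
      show l _ = 1
      rw [(mem_inertia_lf V).1 (hall g) v]
      exact hv
    rcases hmin K hK (Subgroup.map_subtype_le _) with h1 | h1
    · apply hVz
      intro v hv
      rw [Subgroup.mem_center_iff]
      intro g
      have h2 : (⟨v, hv⟩ : V)⁻¹ * MulAut.conjNormal g ⟨v, hv⟩ ∈ l.ker := by
        rw [MonoidHom.mem_ker, map_mul, map_inv, (mem_inertia_lf V).1 (hall g), inv_mul_cancel]
      have h3 : V.subtype ((⟨v, hv⟩ : V)⁻¹ * MulAut.conjNormal g ⟨v, hv⟩) ∈ K := ⟨_, h2, rfl⟩
      rw [h1, Subgroup.mem_bot] at h3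
      have h4 : v⁻¹ * (g * v * g⁻¹) = 1 := h3
      rw [inv_mul_eq_one] at h4
      exact (mul_inv_eq_iff_eq_mul.1 h4.symm)
    · apply hl
      ext v
      have h2 : (v : X) ∈ K := by rw [h1]; exact v.2
      obtain ⟨w, hw, hwv⟩ := h2
      have h3 : w = v := Subtype.ext hwv
      rw [← h3]
      exact congrArg _ hw
  by_cases hp2 : p = 2
  · subst hp2
    let _ := act V
    have hV2 : ∀ v ∈ V, v * v = 1 := fun v hv => by rw [← pow_two]; exact hpV v hv
    let D : Subgroup X := (Q : Subgroup (P2 F)).comap π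
    have hD : IsPGroup 2 D := by
      intro x
      refine ⟨2, ?_⟩
      apply Subtype.ext
      have h1 := hV2 _ (sq_mem V π hF hker Q x.2)
      show (x : X) ^ (2 ^ 2) = 1
      rw [show (x : X) ^ (2 ^ 2) = (x : X) * x * ((x : X) * x) by simp [pow_succ, mul_assoc]]
      exact h1
    have hVp : IsPGroup 2 V := by
      intro v
      refine ⟨1, ?_⟩
      apply Subtype.ext
      show (v : X) ^ (2 ^ 1) = 1
      rw [pow_one]
      exact hpV v v.2
    have hdvd : 2 ∣ Nat.card (V →* ℂˣ) := by
      rw [hcard]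
      obtain ⟨n, hn⟩ := IsPGroup.iff_card.1 hVp
      rw [hn]
      apply dvd_pow_self
      rintro rfl
      rw [pow_zero, Subgroup.card_eq_one] at hn
      exact hVbot hn
    obtain ⟨l, hl, hl1⟩ := hD.exists_fixed_point_of_prime_dvd_card_of_fixed_point (V →* ℂˣ) hdvd
      (a := 1) (fun d => by
        show (d : X) • (1 : V →* ℂˣ) = 1
        exact (act V).smul_one (d : X))
    refine main_evenF V π hF h4 hVc hπ hker Q hV2 l ?_ (hninv l (Ne.symm hl1))
    intro x hx
    exact (act_eq_iff V x l).1 (hl ⟨x, hx⟩)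
  · have hodd : Odd (Nat.card (V →* ℂˣ)) := by
      rw [hcard]
      have hVp : IsPGroup p V := by
        intro v
        refine ⟨1, ?_⟩
        apply Subtype.ext
        show (v : X) ^ (p ^ 1) = 1
        rw [pow_one]
        exact hpV v v.2
      have := Fact.mk hp
      obtain ⟨n, hn⟩ := IsPGroup.iff_card.1 hVp
      rw [hn]
      exact (hp.odd_of_ne_two hp2).pow
    have hex : ∃ x : X, π x ∈ Q ∧ ∃ l : V →* ℂˣ, x ∉ inertia V (lf l) := ?_
    · obtain ⟨l, hlQ, hlc⟩ := exists_half V π hF h4 hVc hπ hker Q hfin hodd hex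
      have hJ : (inertia V (lf l)).map π ≠ ⊤ := by
        intro h
        rw [h] at hlQ
        exact hlQ le_top
      have hle := le_normalizer_of_large' hF h4 Q _ hJ hlc
      obtain ⟨-, h2⟩ := le_of_half hF h4 Q _ hle hlc hlQ
      have hmul := Subgroup.card_mul_index ((inertia V (lf l)).map π)
      have := charTwo hF
      have h1 : 1 < Fintype.card F := Fintype.one_lt_card
      rw [Classification.PSLTwoEvenSylow.card_psl, fac _ h1] at hmul
      have hidx : ((inertia V (lf l)).map π).index = 2 * (Fintype.card F + 1) * (Fintype.card F - 1) := by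
        have hpos : 0 < Nat.card ((inertia V (lf l)).map π) := Nat.card_pos
        apply Nat.eq_of_mul_eq_mul_left hpos
        rw [hmul]
        conv_lhs => rw [← h2]
        have h3 : 0 < Fintype.card F - 1 := by omega
        rw [h2]
        nth_rewrite 1 [← h2]
        ring
      left
      obtain ⟨d, hd, hdd⟩ := exists_degree_one V l
      rw [← index_map V π hVc hπ hker l, hidx] at hdd
      refine ⟨d, hd, dvd_trans ?_ hdd⟩
      rw [fac _ h1]
      exact ⟨2, by ring⟩
    -- faithfulness
    have hsimp : IsSimpleGroup (P2 F) := TwoFusion.SLTwoFacts.isSimpleGroup_psl (by omega)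
    let C : Subgroup X := Subgroup.centralizer (V : Set X)
    have hCn : C.Normal := inferInstance
    have hVC : V ≤ C := by
      intro v hv
      rw [Subgroup.mem_centralizer_iff]
      intro w hw
      exact hVc w hw v hv
    have hCV : C ≤ V := by
      rcases (hCn.map π hπ).eq_bot_or_eq_top with h | h
      · intro c hc
        rw [← hker, MonoidHom.mem_ker]
        have : π c ∈ C.map π := ⟨c, hc, rfl⟩
        rw [h] at this
        exact this
      · exfalso
        apply hVz
        intro v hv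
        rw [Subgroup.mem_center_iff]
        intro g
        have h1 : π g ∈ C.map π := by rw [h]; trivial
        obtain ⟨c, hc, hcg⟩ := h1
        have h2 : c⁻¹ * g ∈ V := by
          rw [← hker, MonoidHom.mem_ker, map_mul, map_inv, hcg, inv_mul_cancel]
        have h3 : g ∈ C := by
          have := mul_mem hc (hVC h2)
          simpa using this
        exact ((Subgroup.mem_centralizer_iff.1 h3) v hv).symm
    have hQ1 : (Q : Subgroup (P2 F)) ≠ ⊥ := by
      intro h
      have h1 : Nat.card (Q : Subgroup (P2 F)) = Fintype.card F := card_sylow hF h4 Q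
      rw [h] at h1
      simp at h1
      omega
    obtain ⟨a, haQ, ha1⟩ := (Subgroup.bot_or_exists_ne_one _).resolve_left hQ1
    obtain ⟨x, rfl⟩ := hπ a
    have hxV : x ∉ C := by
      intro h
      apply ha1
      have := hCV h
      rw [← hker] at this
      exact this
    rw [Subgroup.mem_centralizer_iff] at hxV
    push Not at hxV
    obtain ⟨v, hv, hvx⟩ := hxV
    have hne : (⟨v, hv⟩ : V)⁻¹ * MulAut.conjNormal x ⟨v, hv⟩ ≠ 1 := by
      intro h
      apply hvx
      rw [inv_mul_eq_one] at h
      have h1 : v = x * v * x⁻¹ := congrArg Subtype.val h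
      exact (mul_inv_eq_iff_eq_mul.1 h1.symm).symm
    obtain ⟨l, hl⟩ := exists_lin hVcom hne
    refine ⟨x, haQ, l, ?_⟩
    intro hx
    apply hl
    rw [map_mul, map_inv, (mem_inertia_lf V).1 hx, inv_mul_cancel]

end Cfsg.Agent.H191.Cross
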