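import Cfsg.Agent.S1067
import Cfsg.Agent.ChevalleyStructure.D4H1
import Cfsg.Agent.ChevStructure.FieldMap
import Cfsg.Agent.H191.CoprimeEigen
import Cfsg.Agent.H191.DiagCount
import Cfsg.Agent.H191.AltElts
import Cfsg.Agent.H191.AltTwo

/-!
# Alternating sections of `³D₄(q)`

`not_section`: if `A_r` is a section of `³D₄(q)`, `q = p ^ a`, then `r ≤ 6`, or `r ≤ 7` and `p = 5`.
-/

set_option autoImplicit false

namespace Cfsg.Agent.H191.ThreeD4

open Cfsg.Lie
open Cfsg.Agent.ChevalleyStructure.D4Cols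
open Cfsg.Agent.ChevalleyStructure.D4Fixed
open Cfsg.Agent.ChevalleyStructure.D4Torus
open Cfsg.Agent.ChevalleyStructure.D4H1

/-! ### elements of order 5 of the torus -/

/-- exponent of the root `s` on the torus element with character `(ζ^a, ζ^b, ζ^a, ζ^a)` of order 5 -/
def ex (a b : ZMod 5) (s : ℕ) : ZMod 5 :=
  a * (coef s 0 : ZMod 5) + (b * (coef s 1 : ZMod 5) + (a * (coef s 2 : ZMod 5) + a * (coef s 3 : ZMod 5)))

/-- exponent on a basis vector -/
def exI (a b : ZMod 5) : chevD4.Idx → ZMod 5 := Sum.elim (fun _ => 0) (fun s => ex a b s.val)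

/-- The finite check. -/
theorem chk : ∀ a b : ZMod 5, (∀ k : ZMod 5, (Finset.univ.filter fun j => exI a b j = k).card =
    (Finset.univ.filter fun j => 2 * exI a b j = k).card) → a = 0 ∧ b = 0 := by
  decide +kernel

section
variable {K : Type*} [Field K]

theorem ord_iff {ζ : Kˣ} {p : ℕ} (hζ : orderOf ζ = p) (i j : ℤ) : ζ ^ i = ζ ^ j ↔ (i : ZMod p) = (j : ZMod p) := by
  rw [zpow_eq_zpow_iff_modEq, hζ, ZMod.intCast_eq_intCast_iff]

/-- the character `(ζ^a, ζ^b, ζ^a, ζ^a)` -/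
def ch (ζ : Kˣ) (a b : ℕ) : Fin 4 → Kˣ := ![ζ ^ a, ζ ^ b, ζ ^ a, ζ ^ a]

/-- the value on a basis vector -/
theorem val_eq (ζ : Kˣ) (a b : ℕ) (j : chevD4.Idx) :
    ∃ n : ℤ, val (ch ζ a b) j = ζ ^ n ∧ (n : ZMod 5) = exI a b j := by
  rcases j with i | s
  · exact ⟨0, by rw [zpow_zero]; rfl, by simp [exI]⟩
  · refine ⟨a * coef s.val 0 + (b * coef s.val 1 + (a * coef s.val 2 + a * coef s.val 3)), ?_, ?_⟩
    · show (ζ ^ a) ^ coef s.val 0 * ((ζ ^ b) ^ coef s.val 1 * ((ζ ^ a) ^ coef s.val 2 * (ζ ^ a) ^ coef s.val 3)) = _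
      rw [← zpow_natCast, ← zpow_natCast, ← zpow_mul, ← zpow_mul, ← zpow_mul, ← zpow_mul, ← zpow_add, ← zpow_add,
        ← zpow_add]
    · show _ = ex a b s.val
      unfold ex
      push_cast
      rfl

/-- A torus element of order dividing 5 that is conjugate to its square is trivial. -/
theorem no_conj {ζ : Kˣ} (hζ : orderOf ζ = 5) {a b : ℕ} {g : GL chevD4.Idx K}
    (h : g * tor (ch ζ a b) * g⁻¹ = tor (ch ζ a b) ^ 2) : tor (ch ζ a b) = 1 := by
  classical
  set c := ch ζ a b with hc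
  have h1 : ((tor c : GL chevD4.Idx K) : Matrix chevD4.Idx chevD4.Idx K) =
      Matrix.diagonal fun j => ((val c j : Kˣ) : K) := coe_diagU _
  have h2 : ((tor c ^ 2 : GL chevD4.Idx K) : Matrix chevD4.Idx chevD4.Idx K) =
      Matrix.diagonal fun j => ((val c j ^ 2 : Kˣ) : K) := by
    rw [pow_two, Units.val_mul, h1, Matrix.diagonal_mul_diagonal]
    congr 1
    funext j
    rw [pow_two, Units.val_mul]
  have key := DiagCount.count_eq_of_conj h1 h2 h
  have hab : ((a : ℕ) : ZMod 5) = 0 ∧ ((b : ℕ) : ZMod 5) = 0 := by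
    apply chk
    intro k
    have h3 := key ((ζ ^ k.val : Kˣ) : K)
    convert h3 using 2
    · ext j
      simp only [Finset.mem_filter, Finset.mem_univ, true_and]
      obtain ⟨n, hn, hn'⟩ := val_eq ζ a b j
      rw [hc, hn, ← hn', ← zpow_natCast, Units.val_inj, ord_iff hζ]
      simp
    · ext j
      simp only [Finset.mem_filter, Finset.mem_univ, true_and]
      obtain ⟨n, hn, hn'⟩ := val_eq ζ a b j
      rw [hc, hn, ← hn', ← zpow_natCast, ← zpow_natCast, ← zpow_mul, Units.val_inj, ord_iff hζ]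
      push_cast
      rw [mul_comm]
      simp
  have ha : ζ ^ a = 1 := by
    rw [← orderOf_dvd_iff_pow_eq_one, hζ]
    exact (ZMod.natCast_eq_zero_iff _ _).1 hab.1
  have hb : ζ ^ b = 1 := by
    rw [← orderOf_dvd_iff_pow_eq_one, hζ]
    exact (ZMod.natCast_eq_zero_iff _ _).1 hab.2
  have : ch ζ a b = 1 := by
    unfold ch
    rw [ha, hb]
    funext l
    fin_cases l <;> rfl
  rw [hc, this, tor_one]

end

/-! ### the torus in `³D₄(q)` -/

section
variable {K : Type*} [Field K] [Fintype K] {q : ℕ}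

variable (K q) in
/-- the torus of `³D₄(q)` -/
def A : Subgroup ↥(twistedD4 K q) := (chevD4.diagonalSubgroup K).subgroupOf (twistedD4 K q)

theorem mem_A (hq : IsPrimePow q) (hK : Fintype.card K = q ^ 3) {x : ↥(twistedD4 K q)} (hx : x ∈ A K q) :
    ∃ χ : Fin 4 → Kˣ, tor χ = (x : GL chevD4.Idx K) ∧ χ 1 ^ q = χ 1 ∧ χ 2 = χ 0 ^ q ∧ χ 3 = (χ 0 ^ q) ^ q := by
  obtain ⟨φ, hφ⟩ := exists_frob hq hK
  obtain ⟨χ, h1, h2, h3, h4⟩ := exists_char hK hφ (g := x) ⟨hx, x.2⟩
  have hmap : ∀ u : Kˣ, Units.map (φ : K →* K) u = u ^ q := fun u => Units.ext (hφ u)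
  refine ⟨χ, h1, ?_, ?_, ?_⟩
  · apply Units.ext
    rw [Units.val_pow_eq_pow_val, ← hφ]
    exact h2
  · rw [h3, hmap]
  · rw [h4, hmap, hmap]

theorem A_comm (hq : IsPrimePow q) (hK : Fintype.card K = q ^ 3) : ∀ x ∈ A K q, ∀ y ∈ A K q, x * y = y * x := by
  intro x hx y hy
  obtain ⟨χ, h1, -⟩ := mem_A hq hK hx
  obtain ⟨ψ, h2, -⟩ := mem_A hq hK hy
  apply Subtype.ext
  show (x : GL chevD4.Idx K) * y = y * x
  rw [← h1, ← h2, tor_mul, tor_mul, mul_comm]

theorem card_A (hq : IsPrimePow q) (hK : Fintype.card K = q ^ 3) : Nat.card (A K q) = (q - 1) * (q ^ 3 - 1) := by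
  obtain ⟨φ, hφ⟩ := exists_frob hq hK
  rw [← card_H1 hq hK hφ]
  exact Nat.card_congr
    { toFun := fun x => ⟨x.1.1, x.2, x.1.2⟩
      invFun := fun x => ⟨⟨x.1, x.2.2⟩, x.2.1⟩
      left_inv := fun _ => rfl
      right_inv := fun _ => rfl }

theorem index_A (hq : IsPrimePow q) (hK : Fintype.card K = q ^ 3) :
    (A K q).index = q ^ 12 * ((q + 1) * (q ^ 3 + 1)) * (q ^ 8 + q ^ 4 + 1) := by
  have h1 : Nat.card (A K q) * (A K q).index = Nat.card ↥(twistedD4 K q) := (A K q).card_mul_index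
  rw [card_A hq hK, Cfsg.Agent.S1067.result hq hK] at h1
  have hq1 := hq.one_lt
  have hpos : 0 < (q - 1) * (q ^ 3 - 1) := by
    apply Nat.mul_pos (by omega)
    have := Nat.one_lt_pow (n := 3) (by norm_num) hq1
    omega
  apply Nat.eq_of_mul_eq_mul_left hpos
  rw [h1]
  have e2 : q ^ 2 - 1 = (q - 1) * (q + 1) := by
    have := Nat.sq_sub_sq q 1
    rw [one_pow] at this
    rw [this, mul_comm]
  have e6 : q ^ 6 - 1 = (q ^ 3 - 1) * (q ^ 3 + 1) := by
    have := Nat.sq_sub_sq (q ^ 3) 1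
    rw [one_pow, ← pow_mul] at this
    rw [show (6 : ℕ) = 3 * 2 by norm_num, this, mul_comm]
  rw [e2, e6]
  ring

/-- `q = 1 mod 5`: `5 : 4` is not a section of `³D₄(q)`. -/
theorem no_f20 (hq : IsPrimePow q) (hK : Fintype.card K = q ^ 3) (h5 : (q : ZMod 5) = 1) {r : ℕ}
    (H : Subgroup ↥(twistedD4 K q)) (f : H →* alternatingGroup (Fin r)) (hf : Function.Surjective f) : r ≤ 6 := by
  by_contra hr
  have hidx : ¬ 5 ∣ (A K q).index := by
    rw [index_A hq hK, ← ZMod.natCast_eq_zero_iff]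
    push_cast
    rw [h5]
    decide
  have hfact : Fact (Nat.Prime 5) := ⟨by norm_num⟩
  obtain ⟨a, b, ha, hab⟩ := AltElts.exists_f20 (r := r) (by omega)
  obtain ⟨x, hx, g, hox, hg⟩ := CoprimeEigen.exists_conj_pow (A K q) (A_comm hq hK) hidx f ha (hf a) (hf b) hab
  obtain ⟨χ, hχ, h1, h2, h3⟩ := mem_A hq hK hx
  have hx5 : x ^ 5 = 1 := hox ▸ pow_orderOf_eq_one x
  have hT : tor (χ ^ 5) = (1 : GL chevD4.Idx K) := by
    have e : tor (χ ^ 5) = (tor χ) ^ 5 := map_pow torHom χ 5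
    rw [e, hχ]
    exact congrArg Subtype.val hx5
  have hχ5 : χ ^ 5 = 1 := tor_injective (by rw [hT, tor_one])
  have ha5 : χ 0 ^ 5 = 1 := congrFun hχ5 0
  have hb5 : χ 1 ^ 5 = 1 := congrFun hχ5 1
  -- `q = 1 mod 5`
  have hq5 : q ≡ 1 [MOD 5] := (ZMod.natCast_eq_natCast_iff _ _ _).1 (by rw [h5]; rfl)
  have hpq : χ 0 ^ q = χ 0 := by
    have h6 : χ 0 ^ q = χ 0 ^ 1 := pow_eq_pow_iff_modEq.2 (hq5.of_dvd (orderOf_dvd_of_pow_eq_one ha5))
    rwa [pow_one] at h6
  rw [hpq] at h2 h3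
  rw [hpq] at h3
  obtain ⟨ζ, hζ⟩ : ∃ ζ : Kˣ, orderOf ζ = 5 := by
    apply exists_prime_orderOf_dvd_card' 5
    rw [Nat.card_units, Nat.card_eq_fintype_card, hK]
    have hq3 : q ^ 3 ≡ 1 [MOD 5] := by simpa using hq5.pow 3
    exact (Nat.modEq_iff_dvd' (Nat.one_le_pow _ _ hq.pos)).1 hq3.symm
  have hprim : IsPrimitiveRoot ζ 5 := hζ ▸ IsPrimitiveRoot.orderOf ζ
  obtain ⟨i, _, hi⟩ := (hprim.map_of_injective (f := Units.coeHom K) Units.val_injective).eq_pow_of_pow_eq_one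
    (ξ := ((χ 0 : Kˣ) : K)) (by rw [← Units.val_pow_eq_pow_val, ha5, Units.val_one])
  obtain ⟨j, _, hj⟩ := (hprim.map_of_injective (f := Units.coeHom K) Units.val_injective).eq_pow_of_pow_eq_one
    (ξ := ((χ 1 : Kˣ) : K)) (by rw [← Units.val_pow_eq_pow_val, hb5, Units.val_one])
  have hi' : χ 0 = ζ ^ i := Units.ext (by rw [← hi]; simp)
  have hj' : χ 1 = ζ ^ j := Units.ext (by rw [← hj]; simp)
  have hχe : χ = ch ζ i j := by
    funext l
    fin_cases l
    · exact hi'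
    · exact hj'
    · exact h2.trans hi'
    · exact h3.trans hi'
  rw [hχe] at hχ
  have hfin := no_conj (K := K) hζ (a := i) (b := j) (g := (g : GL chevD4.Idx K)) (by
    rw [hχ]
    exact congrArg Subtype.val hg)
  rw [hχ] at hfin
  have : x = 1 := Subtype.ext hfin
  rw [this, orderOf_one] at hox
  norm_num at hox

/-- `q = 1 mod 16`: `A_8` is not a section of `³D₄(q)`. -/
theorem no_a8 (hq : IsPrimePow q) (hK : Fintype.card K = q ^ 3) (h8 : (q : ZMod 16) = 1) {r : ℕ}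
    (H : Subgroup ↥(twistedD4 K q)) (f : H →* alternatingGroup (Fin r)) (hf : Function.Surjective f) : r ≤ 7 := by
  apply AltTwo.le_seven (A K q) (A_comm hq hK) ?_ ?_ H f hf
  · -- at most 4 solutions of `x ^ 2 = 1`
    choose χ hχ using fun g : A K q => mem_A hq hK g.2
    have hsol : Nat.card {u : Kˣ // u ^ 2 = 1} ≤ 2 := by
      have h1 : Nat.card {u : Kˣ // u ^ 2 = 1} = Nat.card (powMonoidHom 2 : Kˣ →* Kˣ).ker := rfl
      rw [h1, IsCyclic.card_powMonoidHom_ker]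
      exact Nat.le_of_dvd (by norm_num) (Nat.gcd_dvd_right _ _)
    have hsq : ∀ x : {x : A K q // x ^ 2 = 1}, (χ x.1) ^ 2 = 1 := by
      intro x
      apply tor_injective
      have e : tor ((χ x.1) ^ 2) = (tor (χ x.1)) ^ 2 := map_pow torHom (χ x.1) 2
      rw [e, (hχ x.1).1, tor_one]
      exact congrArg (fun z : A K q => ((z : ↥(twistedD4 K q)) : GL chevD4.Idx K)) x.2
    have hinj : Function.Injective (fun x : {x : A K q // x ^ 2 = 1} =>
        ((⟨χ x.1 0, congrFun (hsq x) 0⟩, ⟨χ x.1 1, congrFun (hsq x) 1⟩) :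
          {u : Kˣ // u ^ 2 = 1} × {u : Kˣ // u ^ 2 = 1})) := by
      intro x y h
      have h0 : χ x.1 0 = χ y.1 0 := congrArg (fun z => (Prod.fst z).1) h
      have h1 : χ x.1 1 = χ y.1 1 := congrArg (fun z => (Prod.snd z).1) h
      apply Subtype.ext
      apply Subtype.ext
      apply Subtype.ext
      rw [← (hχ x.1).1, ← (hχ y.1).1]
      congr 1
      funext i
      fin_cases i
      · exact h0
      · exact h1
      · show χ x.1 2 = χ y.1 2
        rw [(hχ x.1).2.2.1, (hχ y.1).2.2.1, h0]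
      · show χ x.1 3 = χ y.1 3
        rw [(hχ x.1).2.2.2, (hχ y.1).2.2.2, h0]
    refine le_trans (Nat.card_le_card_of_injective _ hinj) ?_
    rw [Nat.card_prod]
    exact Nat.mul_le_mul hsol hsol
  · rw [index_A hq hK]
    intro h
    obtain ⟨k, hk⟩ := h
    have h1 : (((q ^ 12 * ((q + 1) * (q ^ 3 + 1)) * (q ^ 8 + q ^ 4 + 1) : ℕ)) : ZMod 16) = ((8 * k : ℕ) : ZMod 16) := by
      rw [hk]
    push_cast at h1
    rw [h8] at h1
    have h2 : ∀ k : ZMod 16, (1 : ZMod 16) ^ 12 * ((1 + 1) * (1 ^ 3 + 1)) * (1 ^ 8 + 1 ^ 4 + 1) ≠ 8 * k := by decide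
    exact h2 _ h1

end

/-! ### extension of the field by degree 4 -/

section
variable {K L : Type*} [Field K] [Field L] {q : ℕ}

/-- `³D₄(q) ≤ ³D₄(q⁴)`: a field homomorphism `K → L` with `t ^ (q ^ 3) = t` on `K` maps generators to generators. -/
theorem map_le (f : K →+* L) (hK : ∀ t : K, t ^ q ^ 3 = t) :
    twistedD4 K q ≤ (twistedD4 L (q ^ 4)).comap (Matrix.GeneralLinearGroup.map f) := by
  show Subgroup.closure _ ≤ _
  rw [Subgroup.closure_le]
  rintro g ⟨w, hw, hg⟩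
  apply Subgroup.subset_closure
  refine ⟨w.map fun p => (p.1, f p.2), ?_, ?_⟩
  · rcases hw with ⟨t, ht, r, hr, rfl⟩ | ⟨t, rs, hrs, rfl⟩
    · left
      refine ⟨f t, ?_, r, hr, rfl⟩
      rw [← map_pow]
      congr 1
      have : ∀ n : ℕ, t ^ q ^ n = t := by
        intro n
        induction n with
        | zero => simp
        | succ n ih => rw [pow_succ, pow_mul, ih, ht]
      exact this 4
    · right
      refine ⟨f t, rs, hrs, ?_⟩
      have h1 : t ^ q ^ 4 = t ^ q := by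
        rw [show q ^ 4 = q ^ 3 * q by ring, pow_mul, hK]
      have h2 : t ^ (q ^ 4) ^ 2 = t ^ q ^ 2 := by
        rw [show (q ^ 4) ^ 2 = q ^ 3 * (q ^ 3 * q ^ 2) by ring, pow_mul, hK, pow_mul, hK]
      show [(rs.1, f t), (rs.2.1, f (t ^ q)), (rs.2.2, f (t ^ q ^ 2))] = _
      rw [← map_pow, ← map_pow, h1, h2]
  · show ((g : Matrix chevD4.Idx chevD4.Idx K)).map f = _
    rw [hg, ChevStructure.FieldMap.wordMat_map]

/-- the embedding `³D₄(q) → ³D₄(q⁴)` -/
noncomputable def emb (f : K →+* L) (hK : ∀ t : K, t ^ q ^ 3 = t) : ↥(twistedD4 K q) →* ↥(twistedD4 L (q ^ 4)) :=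
  ((Matrix.GeneralLinearGroup.map f).comp (twistedD4 K q).subtype).codRestrict _ (fun x => map_le f hK x.2)

theorem emb_injective (f : K →+* L) (hK : ∀ t : K, t ^ q ^ 3 = t) : Function.Injective (emb f hK) := by
  intro x y h
  have h1 : Matrix.GeneralLinearGroup.map f (x : GL chevD4.Idx K) = Matrix.GeneralLinearGroup.map f y :=
    congrArg Subtype.val h
  have h2 : ((x : GL chevD4.Idx K) : Matrix chevD4.Idx chevD4.Idx K).map f =
      ((y : GL chevD4.Idx K) : Matrix chevD4.Idx chevD4.Idx K).map f := congrArg Units.val h1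
  exact Subtype.ext (Units.ext (Matrix.map_injective f.injective h2))

end

theorem five_pow : ((5 : ZMod 16) ^ 4) = 1 := by decide

/-- **Alternating sections of `³D₄(q)`.** -/
theorem not_section {K : Type*} [Field K] [Fintype K] (p a : ℕ) [Fact p.Prime] [CharP K p]
    (ha : 1 ≤ a) (hK : Fintype.card K = (p ^ a) ^ 3) (r : ℕ) (H : Subgroup ↥(twistedD4 K (p ^ a))) (N : Subgroup ↥H)
    [N.Normal] (h : Nonempty (↥H ⧸ N ≃* ↥(alternatingGroup (Fin r)))) : r ≤ 6 + (if p = 5 then 1 else 0) := by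
  have hp : p.Prime := Fact.out
  obtain ⟨e⟩ := h
  have hpow : ∀ t : K, t ^ (p ^ a) ^ 3 = t := fun t => by rw [← hK]; exact FiniteField.pow_card t
  have hne : NeZero 4 := ⟨by norm_num⟩
  set L := FiniteField.Extension K p 4 with hL
  have hfinL : Fintype L := Fintype.ofFinite L
  have hcardL : Fintype.card L = ((p ^ a) ^ 4) ^ 3 := by
    rw [← Nat.card_eq_fintype_card, FiniteField.natCard_extension, Nat.card_eq_fintype_card, hK]
    ring
  let ψ := emb (q := p ^ a) (algebraMap K L) hpow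
  have hψ : Function.Injective ψ := emb_injective _ _
  let f0 : ↥H →* alternatingGroup (Fin r) := e.toMonoidHom.comp (QuotientGroup.mk' N)
  have hf0 : Function.Surjective f0 := e.surjective.comp (QuotientGroup.mk'_surjective N)
  let j := H.equivMapOfInjective ψ hψ
  let f : ↥(H.map ψ) →* alternatingGroup (Fin r) := f0.comp j.symm.toMonoidHom
  have hf : Function.Surjective f := hf0.comp j.symm.surjective
  have hq : IsPrimePow ((p ^ a) ^ 4) := by
    rw [← pow_mul]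
    exact hp.isPrimePow.pow (by omega)
  split_ifs with h5
  · -- characteristic 5
    apply no_a8 hq hcardL ?_ (H.map ψ) f hf
    subst h5
    push_cast
    have h1 : ((5 : ZMod 16) ^ 4) = 1 := five_pow
    rw [← pow_mul, mul_comm, pow_mul, h1, one_pow]
  · rw [Nat.add_zero]
    apply no_f20 hq hcardL ?_ (H.map ψ) f hf
    have h1 : ((p ^ a : ℕ) : ZMod 5) ≠ 0 := by
      rw [Ne, ZMod.natCast_eq_zero_iff]
      intro hd
      have := (Nat.prime_dvd_prime_iff_eq (by norm_num) hp).1 ((by norm_num : Nat.Prime 5).dvd_of_dvd_pow hd)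
      exact h5 this.symm
    have hfact : Fact (Nat.Prime 5) := ⟨by norm_num⟩
    have h2 := ZMod.pow_card_sub_one_eq_one h1
    rw [Nat.cast_pow]
    exact h2

end Cfsg.Agent.H191.ThreeD4
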